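import Cfsg.Agent.BX.Defs
import Cfsg.Agent.BU.Defs
import Cfsg.Agent.H12.BNExchange
import Cfsg.Agent.H38.SBNLie
import Cfsg.Agent.H31.E6Y
import Cfsg.Agent.H29.F4

set_option autoImplicit false

namespace Cfsg.Agent.BX

open Subgroup H15
open Cfsg.Agent.CO1 (Cz mem_Cz)
open scoped commutatorElement

namespace BN3

variable {M T : Type*} [Group M] [Group T]

theorem dc_lift {p : M →* T} (hp : Function.Surjective p) {B : Subgroup T} {x y : M}
    (h : p x ∈ DoubleCoset.doubleCoset (p y) (B : Set T) B) :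
    x ∈ DoubleCoset.doubleCoset y (B.comap p : Set M) (B.comap p) := by
  obtain ⟨a, ha, b, hb, e⟩ := DoubleCoset.mem_doubleCoset.1 h
  obtain ⟨a, rfl⟩ := hp a
  refine DoubleCoset.mem_doubleCoset.2 ⟨a, ha, (a * y)⁻¹ * x, ?_, by group⟩
  show p ((a * y)⁻¹ * x) ∈ B
  rw [map_mul, map_inv, map_mul, e, inv_mul_cancel_left]
  exact hb

/-- the preimage of a BN-pair -/
noncomputable def pull (P : BNPair T) (p : M →* T) (hp : Function.Surjective p) : BNPair M where
  B := P.B.comap p
  N := P.N.comap p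
  S := Function.surjInv hp '' P.S
  sup_eq_top := by rw [comap_sup_eq p _ _ hp, P.sup_eq_top, comap_top]
  conj_mem n hn t ht := by
    rw [mem_comap, map_mul, map_mul, map_inv]
    exact P.conj_mem _ hn _ ht
  subset := by
    rintro _ ⟨s, hs, rfl⟩
    show p _ ∈ P.N
    rw [Function.surjInv_eq hp]
    exact P.subset hs
  sq_mem := by
    rintro _ ⟨s, hs, rfl⟩
    rw [mem_comap, map_mul, Function.surjInv_eq hp]
    exact P.sq_mem s hs
  inj := by
    rintro _ ⟨s, hs, rfl⟩ _ ⟨s', hs', rfl⟩ h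
    rw [mem_comap, map_mul, map_inv, Function.surjInv_eq hp, Function.surjInv_eq hp] at h
    rw [P.inj s hs s' hs' h]
  closure_sup := by
    rw [← comap_inf, ← comap_map_eq_self (f := p) (H := _ ⊔ _) (le_sup_of_le_right (ker_le_comap p _)),
      Subgroup.map_sup, MonoidHom.map_closure, map_comap_eq_self_of_surjective hp, Set.image_image]
    simp only [Function.surjInv_eq hp, Set.image_id']
    rw [P.closure_sup]
  mul_mem_union := by
    rintro _ ⟨s, hs, rfl⟩ n hn b hb
    refine (P.mul_mem_union s hs _ hn _ hb).imp (fun h => dc_lift hp ?_) fun h => dc_lift hp ?_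
    · rwa [map_mul, map_mul, map_mul, Function.surjInv_eq hp]
    · rwa [map_mul, map_mul, Function.surjInv_eq hp]
  conj_ne := by
    rintro _ ⟨s, hs, rfl⟩ h
    refine P.conj_ne s hs ?_
    have := congrArg (p '' ·) h
    simp only [coe_comap, Set.image_image, map_mul, Function.surjInv_eq hp, Set.image_preimage_eq _ hp] at this
    rwa [← Set.image_image (fun b => s * b * s) p, Set.image_preimage_eq _ hp] at this

open H40 in
theorem sbn_E6 {K : Type*} [Field K] [Fintype K] (hK : Fintype.card K = 4) :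
    Nonempty (H38.SBN 2 (Lie.twistedE6 K 2) (Fin 4)) := by
  have hK' : Fintype.card K = 2 ^ 2 := hK
  have : CharP K 2 := charP_of_card_eq_prime_pow hK'
  obtain ⟨φ, hφ⟩ := H40.exists_frob Nat.prime_two.isPrimePow hK'
  rw [← H40.Fix_E6 (H40.frob_iter_self hK' hφ) hφ]
  exact ⟨H38.mtSbn (H40.TE φ) (by decide) 2 ((H40.TE φ).hx_ox (H40.TE_e φ) H40.orbE6)⟩

end BN3

theorem bn_M {M T : Type*} [Group M] [Group T] [Finite M] {n : ℕ → T} {Q L : Subgroup T} {y u : T}
    (h : BU.TF n Q L y u) (p : M →* T) (hp : Function.Surjective p) (hk : IsPGroup 2 p.ker) (U : Sylow 2 M) :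
    ∃ P : BNPair M, P.S.Finite ∧ P.S.ncard ≤ 4 ∧ P.B ≤ normalizer ((U : Subgroup M) : Set M) := by
  have : Finite T := Finite.of_surjective p hp
  have : Nontrivial T := ⟨n 1, 1, fun e => absurd h.r2 (by rw [e, orderOf_one]; decide)⟩
  obtain ⟨j⟩ := H31.E6Y.exists_iso H29.F4.card_eq h.rule h.gen
  obtain ⟨S⟩ := BN3.sbn_E6 H29.F4.card_eq
  obtain ⟨e, he⟩ := (S.equiv j.symm).exists_conj (U.mapSurjective hp)
  obtain ⟨R, hR⟩ : ∃ R : H38.SBN 2 T (Fin 4), R.U = (U : Subgroup M).map p := ⟨_, he⟩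
  refine ⟨BN3.pull R.bn p hp, (Set.finite_range R.n).image _, ?_, ?_⟩
  · refine (Set.ncard_image_le (Set.finite_range R.n)).trans ?_
    rw [← Set.image_univ]
    exact (Set.ncard_image_le).trans (by simp)
  · rw [← comap_map_eq_self (hk.le_sylow_of_normal U), ← hR]
    exact (comap_mono R.normalizer_U.ge).trans (le_normalizer_comap p)

end Cfsg.Agent.BX
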